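import Cfsg.Agent.H308.CA.Coef

/-!
# S3852, type A: [CA22] the orders of the groups of norm one elements (helper248)
-/

set_option autoImplicit false

namespace Cfsg.Agent.H248.CA.CardU

open Cfsg.Agent.H308.CA

theorem card_unitary_lin (F : Type) [Field F] [Finite F] : Nat.card (unitary (Ex F)) = Nat.card F - 1 := by
  rw [← Nat.card_units]
  have hu : ∀ a : Ex F, a ∈ unitary (Ex F) ↔ a.1 * a.2 = 1 := by
    intro a
    rw [Unitary.mem_iff]
    constructor
    · rintro ⟨-, h⟩
      exact congrArg Prod.fst h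
    · intro h
      have h' : a.2 * a.1 = 1 := by rw [mul_comm]; exact h
      exact ⟨Prod.ext h' h, Prod.ext h h'⟩
  refine Nat.card_congr ⟨fun a => ⟨(a : Ex F).1, (a : Ex F).2, (hu _).1 a.2, by rw [mul_comm]; exact (hu _).1 a.2⟩,
    fun u => ⟨(((u : F), ((u⁻¹ : Fˣ) : F)) : F × F), (hu _).2 (by simp)⟩, fun a => ?_, fun u => ?_⟩
  · exact Subtype.ext rfl
  · exact Units.ext rfl

/-- the fixed field -/
def F0 (F : Type) [Field F] [StarRing F] : Subfield F where
  carrier := {a | star a = a}
  mul_mem' {a b} ha hb := by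
    change star (a * b) = a * b
    rw [star_mul', show star a = a from ha, show star b = b from hb]
  one_mem' := star_one F
  add_mem' {a b} ha hb := by
    change star (a + b) = a + b
    rw [star_add, show star a = a from ha, show star b = b from hb]
  zero_mem' := star_zero F
  neg_mem' {a} ha := by
    change star (-a) = -a
    rw [star_neg, show star a = a from ha]
  inv_mem' a ha := by
    change star (a⁻¹) = a⁻¹
    rw [star_inv₀, show star a = a from ha]

theorem mem_F0 {F : Type} [Field F] [StarRing F] {a : F} : a ∈ F0 F ↔ star a = a := Iff.rfl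

theorem card_F0 (F : Type) [Field F] [Finite F] [StarRing F] (hs : ∃ a : F, star a ≠ a) :
    Nat.card F = Nat.card (F0 F) ^ 2 := by
  have hG : Gd F := Good.uni F _ _ inferInstance hs
  obtain ⟨k, hk, hks⟩ := hG.skew
  have hk0 : k ≠ 0 := hk.ne_zero
  obtain ⟨c, hc⟩ := hG.trace (a := 1) one_ne_zero
  rw [mul_one] at hc
  let T : F →+ F := (AddMonoidHom.id F) + (starAddEquiv : F ≃+ F).toAddMonoidHom
  have hT : ∀ a, T a = a + star a := fun a => rfl
  have h1 : Nat.card T.range = Nat.card (F0 F) := by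
    refine Nat.card_congr (Equiv.setCongr ?_)
    ext s
    constructor
    · rintro ⟨a, rfl⟩
      change star (T a) = T a
      rw [hT, star_add, star_star, add_comm]
    · intro h
      have h : star s = s := h
      have h2 : star (c + star c) = c + star c := by rw [star_add, star_star, add_comm]
      refine ⟨s / (c + star c) * c, ?_⟩
      rw [hT, star_mul', star_div₀, h, h2, ← mul_add, div_mul_cancel₀ _ hc]
  have h2 : Nat.card T.ker = Nat.card (F0 F) := by
    refine Nat.card_congr ⟨fun a => ⟨(a : F) / k, ?_⟩, fun s => ⟨(s : F) * k, ?_⟩, fun a => ?_, fun s => ?_⟩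
    · have h3 : (a : F) + star (a : F) = 0 := a.2
      rw [mem_F0, star_div₀, hks, eq_neg_of_add_eq_zero_right h3, neg_div_neg_eq]
    · change (s : F) * k + star ((s : F) * k) = 0
      rw [star_mul', hks, show star (s : F) = s from s.2]
      ring
    · exact Subtype.ext (div_mul_cancel₀ _ hk0)
    · exact Subtype.ext (mul_div_cancel_right₀ _ hk0)
  have h3 := T.ker.card_mul_index
  rw [AddSubgroup.index_ker, h1, h2] at h3
  rw [← h3, pow_two]

theorem card_unitary_uni (F : Type) [Field F] [Finite F] [StarRing F] (hs : ∃ a : F, star a ≠ a) (q : ℕ)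
    (hq : Nat.card F = q ^ 2) : Nat.card (unitary F) = q + 1 := by
  have hG : Gd F := Good.uni F _ _ inferInstance hs
  have h0 := card_F0 F hs
  rw [hq] at h0
  have hq0 : Nat.card (F0 F) = q := (Nat.pow_left_injective two_ne_zero h0).symm
  have hq2 : 2 ≤ q := by rw [← hq0]; exact Finite.one_lt_card
  let N : Fˣ →* Fˣ :=
    { toFun := fun u => ⟨star (u : F) * u, ((u⁻¹ : Fˣ) : F) * star ((u⁻¹ : Fˣ) : F), by
        rw [show star (u : F) * u * (((u⁻¹ : Fˣ) : F) * star ((u⁻¹ : Fˣ) : F)) =
          star (u : F) * (u * ((u⁻¹ : Fˣ) : F)) * star ((u⁻¹ : Fˣ) : F) by ring, Units.mul_inv, mul_one, ← star_mul',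
          Units.mul_inv, star_one], by
        rw [show ((u⁻¹ : Fˣ) : F) * star ((u⁻¹ : Fˣ) : F) * (star (u : F) * u) =
          star ((u⁻¹ : Fˣ) : F) * star (u : F) * (((u⁻¹ : Fˣ) : F) * u) by ring, Units.inv_mul, mul_one, ← star_mul',
          Units.inv_mul, star_one]⟩
      map_one' := Units.ext (by
        change star ((1 : Fˣ) : F) * ((1 : Fˣ) : F) = 1
        rw [Units.val_one, star_one, mul_one])
      map_mul' := fun u v => Units.ext (by
        change star ((u * v : Fˣ) : F) * ((u * v : Fˣ) : F) = star (u : F) * u * (star (v : F) * v)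
        rw [Units.val_mul, star_mul']
        ring) }
  have hN : ∀ u : Fˣ, ((N u : Fˣ) : F) = star (u : F) * u := fun u => rfl
  have h1 : Nat.card N.range = q - 1 := by
    rw [← hq0, ← Nat.card_units]
    refine Nat.card_congr ⟨fun v => ⟨⟨((v : Fˣ) : F), ?_⟩, ⟨(((v : Fˣ)⁻¹ : Fˣ) : F), ?_⟩, ?_, ?_⟩,
      fun w => ⟨⟨((w : F0 F) : F), (((w⁻¹ : (F0 F)ˣ) : F0 F) : F), ?_, ?_⟩, ?_⟩, fun v => ?_, fun w => ?_⟩
    · obtain ⟨v, u, rfl⟩ := v
      rw [mem_F0]
      change star ((N u : Fˣ) : F) = (N u : Fˣ)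
      rw [hN, star_mul', star_star, mul_comm]
    · obtain ⟨v, u, rfl⟩ := v
      rw [mem_F0]
      change star (((N u)⁻¹ : Fˣ) : F) = ((N u)⁻¹ : Fˣ)
      rw [← map_inv, hN, star_mul', star_star, mul_comm]
    · exact Subtype.ext (Units.mul_inv _)
    · exact Subtype.ext (Units.inv_mul _)
    · exact congrArg Subtype.val (Units.mul_inv w)
    · exact congrArg Subtype.val (Units.inv_mul w)
    · obtain ⟨c, hc⟩ := hG.norm (a := ((w : F0 F) : F)) (w : F0 F).2 (fun h => w.ne_zero (Subtype.ext h))
      have hc0 : c ≠ 0 := by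
        rintro rfl
        rw [mul_zero] at hc
        exact w.ne_zero (Subtype.ext hc.symm)
      exact ⟨Units.mk0 c hc0, Units.ext hc⟩
    · exact Subtype.ext (Units.ext rfl)
    · exact Units.ext (Subtype.ext rfl)
  have h2 : Nat.card N.ker = Nat.card (unitary F) := by
    have hu : ∀ a : F, a ∈ unitary F ↔ star a * a = 1 := by
      intro a
      rw [Unitary.mem_iff]
      exact ⟨fun h => h.1, fun h => ⟨h, by rw [mul_comm]; exact h⟩⟩
    refine Nat.card_congr ⟨fun u => ⟨((u : Fˣ) : F), ?_⟩, fun a => ⟨⟨(a : F), star (a : F), ?_, ?_⟩, ?_⟩, fun u => ?_,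
      fun a => ?_⟩
    · rw [hu, ← hN, show N (u : Fˣ) = 1 from u.2, Units.val_one]
    · exact (Unitary.mem_iff.1 a.2).2
    · exact (Unitary.mem_iff.1 a.2).1
    · exact Units.ext ((hu _).1 a.2)
    · exact Subtype.ext (Units.ext rfl)
    · exact Subtype.ext rfl
  have h3 := N.ker.card_mul_index
  rw [Subgroup.index_ker, h1, h2, Nat.card_units, hq] at h3
  have h4 : (q + 1) * (q - 1) = q ^ 2 - 1 := by
    have := Nat.sq_sub_sq q 1
    rw [one_pow] at this
    exact this.symm
  rw [← h4] at h3
  exact Nat.eq_of_mul_eq_mul_right (by omega) h3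

theorem cast_ex {F : Type} [Field F] (n : ℕ) : (n : Ex F) = ((n : F), (n : F)) := by
  induction n with
  | zero => rw [Nat.cast_zero, Nat.cast_zero]; rfl
  | succ n ih => rw [Nat.cast_succ, Nat.cast_succ, ih]; rfl

theorem char_lin {F : Type} [Field F] {p : ℕ} (h : CharP F p) : CharP (Ex F) p where
  cast_eq_zero_iff n := by
    rw [← CharP.cast_eq_zero_iff F p n, cast_ex]
    exact ⟨fun h => congrArg Prod.fst h, fun h => Prod.ext h h⟩

end Cfsg.Agent.H248.CA.CardU
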