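import Cfsg.Agent.H308.CA.Grp

/-!
# (GL) extending an invariant Sylow 2-subgroup over a cyclic quotient (helper248, for S3852)

`sylow_two_ext` : `K` a Carter subgroup, `L ≤ Y` normalized by `K` and `Y`, `Y / L` cyclic, `T` a `K`-invariant Sylow
2-subgroup of `L`: there is a `K`-invariant Sylow 2-subgroup of `Y`.
-/

set_option autoImplicit false
set_option linter.unusedSectionVars false
set_option linter.unusedVariables false

namespace Cfsg.Agent.H248.CA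

open Subgroup Pointwise
open Cfsg.Agent.Solvable.Carter Cfsg.Agent.H18.Carter Cfsg.Agent.H381.Car Cfsg.Agent.H308.CA

universe u v

/-- a cyclic group has at most one involution -/
theorem inv_unique {C : Type v} [Group C] [IsCyclic C] [Finite C] {u v : C} (hu : u ^ 2 = 1) (hv : v ^ 2 = 1)
    (huv : u = 1 ↔ v = 1) : u = v := by
  classical
  have := Fintype.ofFinite C
  by_contra hne
  have hu1 : u ≠ 1 := fun h => hne (by rw [h, huv.1 h])
  have hv1 : v ≠ 1 := fun h => hu1 (huv.2 h)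
  have h1 := IsCyclic.card_pow_eq_one_le (α := C) (n := 2) (by norm_num)
  have h2 : ({1, u, v} : Finset C) ⊆ Finset.univ.filter fun a : C => a ^ 2 = 1 := by
    intro x hx
    simp only [Finset.mem_insert, Finset.mem_singleton] at hx
    rw [Finset.mem_filter]
    refine ⟨Finset.mem_univ _, ?_⟩
    rcases hx with rfl | rfl | rfl
    · exact one_pow 2
    · exact hu
    · exact hv
  have h3 := Finset.card_le_card h2
  rw [Finset.card_insert_of_notMem (by simp [hu1.symm, hv1.symm]), Finset.card_insert_of_notMem (by simpa using hne),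
    Finset.card_singleton] at h3
  omega

section chain

variable {G : Type u} [Group G] {C : Type v} [CommGroup C] {Y L : Subgroup G} (f : Y →* C)

/-- the subgroup of the elements whose order is `2 ^ i` times an odd number -/
def D (C : Type v) [CommGroup C] (i : ℕ) : Subgroup C where
  carrier := {c | ∃ m, Odd m ∧ c ^ (m * 2 ^ i) = 1}
  one_mem' := ⟨1, odd_one, one_pow _⟩
  mul_mem' := by
    rintro a b ⟨m, hm, ha⟩ ⟨n, hn, hb⟩
    refine ⟨m * n, hm.mul hn, ?_⟩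
    rw [mul_pow]
    have h1 : a ^ (m * n * 2 ^ i) = 1 := by
      rw [show m * n * 2 ^ i = (m * 2 ^ i) * n by ring, pow_mul, ha, one_pow]
    have h2 : b ^ (m * n * 2 ^ i) = 1 := by
      rw [show m * n * 2 ^ i = (n * 2 ^ i) * m by ring, pow_mul, hb, one_pow]
    rw [h1, h2, mul_one]
  inv_mem' := by
    rintro a ⟨m, hm, ha⟩
    exact ⟨m, hm, by rw [inv_pow, ha, inv_one]⟩

/-- the preimage in `Y` -/
def Yi (i : ℕ) : Subgroup G := ((D C i).comap f).map Y.subtype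

theorem mem_Yi {i : ℕ} {y : G} : y ∈ Yi f i ↔ ∃ hy : y ∈ Y, ∃ m, Odd m ∧ f ⟨y, hy⟩ ^ (m * 2 ^ i) = 1 := by
  constructor
  · rintro ⟨⟨y, hy⟩, h, rfl⟩
    exact ⟨hy, h⟩
  · rintro ⟨hy, h⟩
    exact ⟨⟨y, hy⟩, h, rfl⟩

theorem Yi_le (i : ℕ) : Yi f i ≤ Y := by
  rintro _ ⟨y, -, rfl⟩
  exact y.2

variable {f} (hker : f.ker = L.subgroupOf Y)
include hker

theorem pow_eq_one_iff {y : G} (hy : y ∈ Y) {n : ℕ} : f ⟨y, hy⟩ ^ n = 1 ↔ y ^ n ∈ L := by
  rw [← map_pow, ← MonoidHom.mem_ker, hker, mem_subgroupOf]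
  rfl

theorem mem_Yi' {i : ℕ} {y : G} : y ∈ Yi f i ↔ y ∈ Y ∧ ∃ m, Odd m ∧ y ^ (m * 2 ^ i) ∈ L := by
  rw [mem_Yi]
  constructor
  · rintro ⟨hy, m, hm, h⟩
    exact ⟨hy, m, hm, (pow_eq_one_iff hker hy).1 h⟩
  · rintro ⟨hy, m, hm, h⟩
    exact ⟨hy, m, hm, (pow_eq_one_iff hker hy).2 h⟩

theorem le_Yi (hLY : L ≤ Y) (i : ℕ) : L ≤ Yi f i := by
  intro x hx
  rw [mem_Yi' hker]
  exact ⟨hLY hx, 1, odd_one, pow_mem hx _⟩

theorem conj_mem_Yi {i : ℕ} {k : G} (hkY : k ∈ normalizer (Y : Set G)) (hkL : k ∈ normalizer (L : Set G)) {y : G}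
    (hy : y ∈ Yi f i) : k * y * k⁻¹ ∈ Yi f i := by
  rw [mem_Yi' hker] at hy ⊢
  obtain ⟨h1, m, hm, h2⟩ := hy
  refine ⟨(mem_normalizer_iff.1 hkY _).1 h1, m, hm, ?_⟩
  rw [conj_pow]
  exact (mem_normalizer_iff.1 hkL _).1 h2

theorem norm_Yi {i : ℕ} {k : G} (hkY : k ∈ normalizer (Y : Set G)) (hkL : k ∈ normalizer (L : Set G)) :
    k ∈ normalizer (Yi f i : Set G) := by
  rw [mem_normalizer_iff]
  intro y
  refine ⟨conj_mem_Yi hker hkY hkL, fun h => ?_⟩
  have h1 := conj_mem_Yi hker (inv_mem hkY) (inv_mem hkL) h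
  have e : k⁻¹ * (k * y * k⁻¹) * k⁻¹⁻¹ = y := by group
  rwa [e] at h1

/-- the commutators -/
theorem comm_mem_Yi [Finite C] [IsCyclic C] {i : ℕ} {k s : G} (hkY : k ∈ normalizer (Y : Set G))
    (hkL : k ∈ normalizer (L : Set G)) (hs : s ∈ Yi f (i + 1)) : s * k * s⁻¹ * k⁻¹ ∈ Yi f i := by
  have hs' := (mem_Yi' hker).1 hs
  obtain ⟨h1, m, hm, h2⟩ := hs'
  have h1' : k * s * k⁻¹ ∈ Y := (mem_normalizer_iff.1 hkY _).1 h1
  have e : s * k * s⁻¹ * k⁻¹ = s * (k * s * k⁻¹)⁻¹ := by group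
  rw [e, mem_Yi]
  refine ⟨mul_mem h1 (inv_mem h1'), m, hm, ?_⟩
  have e2 : f ⟨s * (k * s * k⁻¹)⁻¹, mul_mem h1 (inv_mem h1')⟩ = f ⟨s, h1⟩ * (f ⟨k * s * k⁻¹, h1'⟩)⁻¹ := by
    rw [← map_inv, ← map_mul]
    rfl
  rw [e2, mul_pow, inv_pow, mul_inv_eq_one]
  refine inv_unique ?_ ?_ ?_
  · rw [← pow_mul, mul_assoc, ← pow_succ, pow_eq_one_iff hker]
    exact h2
  · rw [← pow_mul, mul_assoc m, ← pow_succ, pow_eq_one_iff hker, conj_pow]
    exact (mem_normalizer_iff.1 hkL _).1 h2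
  · rw [pow_eq_one_iff hker, pow_eq_one_iff hker, conj_pow]
    exact mem_normalizer_iff.1 hkL _

theorem exists_Yi_eq [Finite G] : ∃ n, Yi f n = Y := by
  obtain ⟨n, m, hm, h⟩ := Nat.exists_eq_two_pow_mul_odd (n := Nat.card Y) Nat.card_pos.ne'
  refine ⟨n, le_antisymm (Yi_le f n) fun y hy => ?_⟩
  rw [mem_Yi]
  refine ⟨hy, m, hm, ?_⟩
  rw [← map_pow, mul_comm, ← h, pow_card_eq_one', map_one]

/-- `L` has odd index in `Y_0` -/
theorem odd_relIndex [Finite G] (hLY : L ≤ Y) (hYL : Y ≤ normalizer (L : Set G)) : ¬ 2 ∣ L.relIndex (Yi f 0) := by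
  intro h
  have hn : (L.subgroupOf (Yi f 0)).Normal := by
    constructor
    intro x hx y
    rw [mem_subgroupOf] at hx ⊢
    exact (mem_normalizer_iff.1 (hYL (Yi_le f 0 y.2)) _).1 hx
  rw [relIndex, index_eq_card] at h
  have : Fact (Nat.Prime 2) := ⟨Nat.prime_two⟩
  obtain ⟨x, hx⟩ := exists_prime_orderOf_dvd_card' (G := (Yi f 0) ⧸ L.subgroupOf (Yi f 0)) 2 h
  obtain ⟨y, rfl⟩ := QuotientGroup.mk_surjective x
  obtain ⟨-, m, hm, h1⟩ := (mem_Yi' hker).1 y.2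
  rw [pow_zero, mul_one] at h1
  have h2 : (QuotientGroup.mk y : (Yi f 0) ⧸ L.subgroupOf (Yi f 0)) ^ m = 1 := by
    rw [← QuotientGroup.mk_pow, QuotientGroup.eq_one_iff, mem_subgroupOf]
    exact h1
  have h3 := orderOf_dvd_of_pow_eq_one h2
  rw [hx] at h3
  obtain ⟨c, hc⟩ := hm
  omega

end chain

section main

variable {G : Type u} [Group G] [Finite G]

/-- Frattini -/
theorem frattini' {Y L T : Subgroup G} (hYL : Y ≤ normalizer (L : Set G)) (hTL : T ≤ L) (hT : IsPGroup 2 T)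
    (hTi : ¬ 2 ∣ T.relIndex L) {y : G} (hy : y ∈ Y) : ∃ l ∈ L, l⁻¹ * y ∈ normalizer (T : Set G) := by
  have : Fact (Nat.Prime 2) := ⟨Nat.prime_two⟩
  have hyL := hYL hy
  set T' := T.map (MulAut.conj y).toMonoidHom with hT'
  have hT'L : T' ≤ L := by
    rintro _ ⟨t, ht, rfl⟩
    exact (mem_normalizer_iff.1 hyL _).1 (hTL ht)
  have hLm : L.map (MulAut.conj y).toMonoidHom = L := (mem_normalizer_iff_map_conj_eq).1 hyL
  have hT'i : T'.relIndex L = T.relIndex L := by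
    conv_lhs => rw [← hLm]
    exact relIndex_map_map_of_injective _ _ (MulAut.conj y).injective
  have hp1 : IsPGroup 2 (T.subgroupOf L) := hT.comap_subtype
  have hp2 : IsPGroup 2 (T'.subgroupOf L) := (hT.map _).comap_subtype
  let P1 : Sylow 2 L := hp1.toSylow hTi
  let P2 : Sylow 2 L := hp2.toSylow (by
    change ¬ 2 ∣ T'.relIndex L
    rw [hT'i]; exact hTi)
  obtain ⟨l, hl⟩ := MulAction.exists_smul_eq L P1 P2
  have hl' : MulAut.conj l • (T.subgroupOf L) = T'.subgroupOf L := congrArg Sylow.toSubgroup hl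
  refine ⟨l, l.2, ?_⟩
  have key : ∀ t : G, t ∈ T ↔ y * t * y⁻¹ ∈ T' := by
    intro t
    constructor
    · intro ht
      exact ⟨t, ht, rfl⟩
    · rintro ⟨x, hx, hxt⟩
      have : x = t := (MulAut.conj y).injective hxt
      rwa [← this]
  have key2 : ∀ t : G, t ∈ T' ↔ (l : G)⁻¹ * t * l ∈ T := by
    intro t
    constructor
    · intro ht
      have h1 : (⟨t, hT'L ht⟩ : L) ∈ MulAut.conj l • (T.subgroupOf L) := by
        rw [hl']; exact mem_subgroupOf.2 ht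
      rw [mem_pointwise_smul_iff_inv_smul_mem] at h1
      have h2 := mem_subgroupOf.1 h1
      have h3 : (((MulAut.conj l)⁻¹ • (⟨t, hT'L ht⟩ : L) : L) : G) = (l : G)⁻¹ * t * l := by
        rw [← map_inv, MulAut.smul_def, MulAut.conj_apply, inv_inv]
        rfl
      rwa [h3] at h2
    · intro ht
      have htL : t ∈ L := by
        have h1 := mul_mem (mul_mem l.2 (hTL ht)) (inv_mem l.2)
        have e : (l : G) * ((l : G)⁻¹ * t * l) * (l : G)⁻¹ = t := by group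
        rwa [e] at h1
      have h1 : (⟨t, htL⟩ : L) ∈ T'.subgroupOf L := by
        rw [← hl', mem_pointwise_smul_iff_inv_smul_mem, mem_subgroupOf]
        have h3 : (((MulAut.conj l)⁻¹ • (⟨t, htL⟩ : L) : L) : G) = (l : G)⁻¹ * t * l := by
          rw [← map_inv, MulAut.smul_def, MulAut.conj_apply, inv_inv]
          rfl
        rwa [h3]
      exact mem_subgroupOf.1 h1
  rw [mem_normalizer_iff]
  intro t
  rw [key t, key2]
  have e : (l : G)⁻¹ * (y * t * y⁻¹) * l = (l : G)⁻¹ * y * t * ((l : G)⁻¹ * y)⁻¹ := by group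
  rw [e]

/-- the 2-part of an element of a subgroup -/
theorem exists_two_part {H : Subgroup G} {x : G} (hx : x ∈ H) :
    ∃ a b : G, a ∈ zpowers x ∧ b ∈ zpowers x ∧ x = a * b ∧ (∃ n, a ^ 2 ^ n = 1) ∧ ∃ m, Odd m ∧ b ^ m = 1 := by
  obtain ⟨n, m, hm, h⟩ := Nat.exists_eq_two_pow_mul_odd (n := orderOf x) (orderOf_pos x).ne'
  have hc : IsCoprime ((2 : ℤ) ^ n) (m : ℤ) := by
    have h1 : Nat.Coprime (2 ^ n) m := Nat.Coprime.pow_left _ (Nat.coprime_two_left.2 hm)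
    exact_mod_cast Nat.isCoprime_iff_coprime.2 h1
  obtain ⟨u, v, huv⟩ := hc
  have h0 : x ^ ((2 : ℤ) ^ n * m) = 1 := by
    have h1 : ((2 : ℤ) ^ n * m) = ((2 ^ n * m : ℕ) : ℤ) := by push_cast; ring
    rw [h1, zpow_natCast, ← h, pow_orderOf_eq_one]
  refine ⟨x ^ (v * m), x ^ (u * 2 ^ n), zpow_mem (mem_zpowers x) _, zpow_mem (mem_zpowers x) _, ?_, ⟨n, ?_⟩, m, hm, ?_⟩
  · rw [← zpow_add, add_comm, huv, zpow_one]
  · rw [← zpow_natCast, ← zpow_mul]
    have e : v * (m : ℤ) * ((2 ^ n : ℕ) : ℤ) = ((2 : ℤ) ^ n * m) * v := by push_cast; ring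
    rw [e, zpow_mul, h0, one_zpow]
  · rw [← zpow_natCast, ← zpow_mul]
    have e : u * (2 : ℤ) ^ n * (m : ℤ) = ((2 : ℤ) ^ n * m) * u := by ring
    rw [e, zpow_mul, h0, one_zpow]

/-- **(GL)** -/
theorem sylow_two_ext_of_hom (hS : Sml G) {K : Subgroup G} (hK : IsCarter K) (Y L T : Subgroup G) (hLY : L ≤ Y)
    (hKY : K ≤ normalizer (Y : Set G)) (hKL : K ≤ normalizer (L : Set G)) (hYL : Y ≤ normalizer (L : Set G))
    {C : Type v} [CommGroup C] [Finite C] [IsCyclic C] {f : Y →* C} (hker : f.ker = L.subgroupOf Y) (hTL : T ≤ L)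
    (hT : IsPGroup 2 T) (hTi : ¬ 2 ∣ T.relIndex L) (hKT : K ≤ normalizer (T : Set G)) :
    ∃ P : Subgroup G, P ≤ Y ∧ IsPGroup 2 P ∧ ¬ 2 ∣ P.relIndex Y ∧ K ≤ normalizer (P : Set G) := by
  have hp2 : Fact (Nat.Prime 2) := ⟨Nat.prime_two⟩
  have hYi : ∀ i, Y ≤ normalizer (Yi f i : Set G) := fun i y hy => norm_Yi hker (le_normalizer hy) (hYL hy)
  have hKYi : ∀ i, K ≤ normalizer (Yi f i : Set G) := fun i k hk => norm_Yi hker (hKY hk) (hKL hk)
  -- the chain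
  have hchain : ∀ i, Yi f i ⊓ normalizer (T : Set G) ≤ K ⊔ (Yi f 0 ⊓ normalizer (T : Set G)) := by
    intro i
    induction i with
    | zero => exact le_sup_right
    | succ i ih =>
      intro s hs
      have h1 : s ∈ K ⊔ (Yi f i ⊓ normalizer (T : Set G)) := by
        refine w_of_sml hS hK ?_ ?_
        · have hsY : s ∈ normalizer (Yi f i : Set G) := hYi i (Yi_le f _ hs.1)
          have h2 : zpowers s ≤ normalizer ((Yi f i ⊓ normalizer (T : Set G) : Subgroup G) : Set G) :=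
            le_normalizer_inf (by rw [zpowers_le]; exact hsY) (by rw [zpowers_le]; exact le_normalizer hs.2)
          exact h2 (mem_zpowers s)
        · intro k hk
          have hs2 : s ∈ normalizer (T : Set G) := hs.2
          have h2 : s * k * s⁻¹ * k⁻¹ ∈ normalizer (T : Set G) :=
            mul_mem (mul_mem (mul_mem hs2 (hKT hk)) (inv_mem hs2)) (inv_mem (hKT hk))
          exact ⟨comm_mem_Yi hker (hKY hk) (hKL hk) hs.1, h2⟩
      exact (sup_le le_sup_left ih) h1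
  obtain ⟨n, hn⟩ := exists_Yi_eq hker
  have hW : Y ⊓ normalizer (T : Set G) ≤ K ⊔ (Yi f 0 ⊓ normalizer (T : Set G)) := by
    have := hchain n
    rwa [hn] at this
  -- the Sylow 2-subgroup of `K`
  have hKn := hK.1
  obtain ⟨S2⟩ : Nonempty (Sylow 2 K) := inferInstance
  have hS2 : (S2 : Subgroup K).Normal := by
    have h := (Group.isNilpotent_of_finite_tfae (G := K)).out 0 3
    exact h.1 hKn 2 hp2 S2
  set K2 : Subgroup G := (S2 : Subgroup K).map K.subtype with hK2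
  have hK2p : IsPGroup 2 K2 := S2.2.map _
  have hK2K : K2 ≤ K := map_subtype_le _
  have hK2n : K ≤ normalizer (K2 : Set G) := by
    intro k hk
    have h1 : ∀ k ∈ K, ∀ x ∈ K2, k * x * k⁻¹ ∈ K2 := by
      rintro k hk _ ⟨x, hx, rfl⟩
      exact ⟨⟨k, hk⟩ * x * ⟨k, hk⟩⁻¹, hS2.conj_mem x hx ⟨k, hk⟩, rfl⟩
    rw [mem_normalizer_iff]
    intro x
    refine ⟨h1 k hk x, fun h => ?_⟩
    have h2 := h1 k⁻¹ (inv_mem hk) _ h
    have e : k⁻¹ * (k * x * k⁻¹) * k⁻¹⁻¹ = x := by group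
    rwa [e] at h2
  have hK2mem : ∀ x ∈ K, (∃ n, x ^ 2 ^ n = 1) → x ∈ K2 := by
    rintro x hx ⟨n, hn⟩
    have h1 : IsPGroup 2 (zpowers (⟨x, hx⟩ : K)) := by
      rintro ⟨y, hy⟩
      obtain ⟨j, rfl⟩ := mem_zpowers_iff.1 hy
      refine ⟨n, Subtype.ext ?_⟩
      change ((⟨x, hx⟩ : K) ^ j) ^ 2 ^ n = 1
      have h3 : (⟨x, hx⟩ : K) ^ 2 ^ n = 1 := Subtype.ext hn
      rw [← zpow_natCast, ← zpow_mul, mul_comm, zpow_mul, zpow_natCast, h3, one_zpow]
    obtain ⟨Q, hQ⟩ := h1.exists_le_sylow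
    have h2 : Q = S2 := by
      obtain ⟨g, hg⟩ := MulAction.exists_smul_eq K S2 Q
      rw [← hg]
      exact Sylow.smul_eq_of_normal
    exact ⟨⟨x, hx⟩, h2 ▸ hQ (mem_zpowers _), rfl⟩
  set B : Subgroup G := K2 ⊓ (Y ⊓ normalizer (T : Set G)) with hB
  have hBp : IsPGroup 2 B := hK2p.to_le inf_le_left
  have hKB : K ≤ normalizer (B : Set G) :=
    le_normalizer_inf hK2n (le_normalizer_inf hKY (hKT.trans (by
      intro x hx
      rw [mem_normalizer_iff]
      intro y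
      constructor
      · intro hy
        exact mul_mem (mul_mem hx hy) (inv_mem hx)
      · intro hy
        have h1 := mul_mem (mul_mem (inv_mem hx) hy) hx
        have e : x⁻¹ * (x * y * x⁻¹) * x = y := by group
        rwa [e] at h1)))
  have hBT : B ≤ normalizer (T : Set G) := fun x hx => hx.2.2
  set P : Subgroup G := B ⊔ T with hP
  have hPp : IsPGroup 2 P := IsPGroup.to_sup_of_normal_right' hBp hT hBT
  have hPY : P ≤ Y := sup_le (fun x hx => hx.2.1) (hTL.trans hLY)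
  refine ⟨P, hPY, hPp, ?_, le_normalizer_sup hKB hKT⟩
  -- `P` is a Sylow subgroup of `Y`
  have hPp' : IsPGroup 2 (P.subgroupOf Y) := hPp.comap_subtype
  obtain ⟨Q, hQ⟩ := hPp'.exists_le_sylow
  have hR0 : ¬ 2 ∣ T.relIndex (Yi f 0) := by
    rw [← relIndex_mul_relIndex T L (Yi f 0) hTL (le_Yi hker hLY 0)]
    exact Nat.Prime.not_dvd_mul Nat.prime_two hTi (odd_relIndex hker hLY hYL)
  have hQT : ∀ x : Y, x ∈ Q → (x : G) ∈ Yi f 0 → (x : G) ∈ T := by
    intro x hx hx0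
    set R := (Q : Subgroup Y).map Y.subtype ⊓ Yi f 0 with hR
    have hRp : IsPGroup 2 R := (Q.2.map _).to_le inf_le_left
    have hTR : T ≤ R := by
      intro t ht
      refine ⟨⟨⟨t, hLY (hTL ht)⟩, hQ (mem_subgroupOf.2 (le_sup_right (a := B) ht)), rfl⟩, le_Yi hker hLY 0 (hTL ht)⟩
    have h1 : T.relIndex R ∣ T.relIndex (Yi f 0) := by
      rw [← relIndex_mul_relIndex T R (Yi f 0) hTR inf_le_right]
      exact dvd_mul_right _ _
    obtain ⟨a, ha⟩ := hRp.index (T.subgroupOf R)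
    have h2 : T.relIndex R = 1 := by
      change T.relIndex R = 2 ^ a at ha
      rcases Nat.eq_zero_or_pos a with rfl | ha0
      · rw [ha, pow_zero]
      · exfalso
        apply hR0
        refine dvd_trans ?_ h1
        rw [ha]
        exact dvd_pow_self 2 (by omega)
    have h3 : R ≤ T := relIndex_eq_one.1 h2
    exact h3 ⟨⟨x, hx, rfl⟩, hx0⟩
  have hQP : (Q : Subgroup Y) ≤ P.subgroupOf Y := by
    intro x hx
    rw [mem_subgroupOf]
    obtain ⟨l, hl, hlx⟩ := frattini' hYL hTL hT hTi x.2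
    have hlY : l⁻¹ ∈ Y := inv_mem (hLY hl)
    have hw : l⁻¹ * x ∈ Y ⊓ normalizer (T : Set G) := ⟨Y.mul_mem hlY x.2, hlx⟩
    -- `w = k w₀`
    obtain ⟨k, hk, w₀, hw₀, hkw⟩ : ∃ k ∈ K, ∃ w₀ ∈ Yi f 0 ⊓ normalizer (T : Set G), k * w₀ = l⁻¹ * x := by
      have h1 := hW hw
      have h2 : K ≤ normalizer ((Yi f 0 ⊓ normalizer (T : Set G) : Subgroup G) : Set G) :=
        le_normalizer_inf (hKYi 0) (hKT.trans le_normalizer)
      rw [← SetLike.mem_coe, coe_mul_of_left_le_normalizer_right _ _ h2] at h1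
      obtain ⟨k, hk, w, hw, h⟩ := Set.mem_mul.1 h1
      exact ⟨k, hk, w, hw, h⟩
    have hkW : k ∈ Y ⊓ normalizer (T : Set G) := by
      have e : k = (l⁻¹ * x) * w₀⁻¹ := by rw [← hkw]; group
      have h1 : w₀ ∈ Y ⊓ normalizer (T : Set G) := ⟨Yi_le f 0 hw₀.1, hw₀.2⟩
      rw [e]
      exact mul_mem hw (inv_mem h1)
    obtain ⟨a, b, ha, hb, hab, ha2, m, hm, hbm⟩ := exists_two_part hk
    have hzK : zpowers k ≤ K := by rw [zpowers_le]; exact hk
    have hzW : zpowers k ≤ Y ⊓ normalizer (T : Set G) := by rw [zpowers_le]; exact hkW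
    have haB : a ∈ B := ⟨hK2mem a (hzK ha) ha2, hzW ha⟩
    have hb0 : b ∈ Yi f 0 := by
      rw [mem_Yi' hker]
      refine ⟨(hzW hb).1, m, hm, ?_⟩
      rw [pow_zero, mul_one, hbm]
      exact one_mem _
    -- `x = l a b w₀`
    have hx' : (x : G) = (l * (a * (b * w₀) * a⁻¹)) * a := by
      have e : (x : G) = l * (l⁻¹ * x) := by group
      rw [e, ← hkw, hab]
      group
    have haP : a ∈ P := le_sup_left (b := T) haB
    have hr : l * (a * (b * w₀) * a⁻¹) ∈ Yi f 0 := by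
      refine mul_mem (le_Yi hker hLY 0 hl) ?_
      exact (mem_normalizer_iff.1 (hYi 0 (hPY haP)) _).1 (mul_mem hb0 hw₀.1)
    have haQ : (⟨a, hPY haP⟩ : Y) ∈ Q := hQ (mem_subgroupOf.2 haP)
    have hrQ : (⟨l * (a * (b * w₀) * a⁻¹), Yi_le f 0 hr⟩ : Y) ∈ Q := by
      have e : (⟨l * (a * (b * w₀) * a⁻¹), Yi_le f 0 hr⟩ : Y) = x * (⟨a, hPY haP⟩ : Y)⁻¹ := by
        apply Subtype.ext
        change l * (a * (b * w₀) * a⁻¹) = (x : G) * a⁻¹
        rw [hx', mul_inv_cancel_right]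
      rw [e]
      exact mul_mem hx (inv_mem haQ)
    rw [hx']
    exact mul_mem (le_sup_right (a := B) (hQT _ hrQ hr)) haP
  have hQe : P.subgroupOf Y = Q := le_antisymm hQ hQP
  rw [relIndex, hQe]
  exact Q.not_dvd_index

/-- **(GL)**, with the quotient -/
theorem sylow_two_ext (hS : Sml G) {K : Subgroup G} (hK : IsCarter K) (Y L T : Subgroup G) (hLY : L ≤ Y)
    (hKY : K ≤ normalizer (Y : Set G)) (hKL : K ≤ normalizer (L : Set G)) (hYL : Y ≤ normalizer (L : Set G))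
    [hn : (L.subgroupOf Y).Normal] (hcyc : IsCyclic (Y ⧸ L.subgroupOf Y)) (hTL : T ≤ L)
    (hT : IsPGroup 2 T) (hTi : ¬ 2 ∣ T.relIndex L) (hKT : K ≤ normalizer (T : Set G)) :
    ∃ P : Subgroup G, P ≤ Y ∧ IsPGroup 2 P ∧ ¬ 2 ∣ P.relIndex Y ∧ K ≤ normalizer (P : Set G) := by
  let _ : CommGroup (Y ⧸ L.subgroupOf Y) := IsCyclic.commGroup
  exact sylow_two_ext_of_hom hS hK Y L T hLY hKY hKL hYL (f := QuotientGroup.mk' (L.subgroupOf Y))
    (QuotientGroup.ker_mk' _) hTL hT hTi hKT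

/-- **(GL)**, with a homomorphism onto a cyclic group -/
theorem sylow_two_ext' (hS : Sml G) {K : Subgroup G} (hK : IsCarter K) (Y L T : Subgroup G) (hLY : L ≤ Y)
    (hKY : K ≤ normalizer (Y : Set G)) (hKL : K ≤ normalizer (L : Set G)) (hYL : Y ≤ normalizer (L : Set G))
    {C : Type v} [Group C] [hC : IsCyclic C] {f : Y →* C} (hker : f.ker = L.subgroupOf Y) (hTL : T ≤ L)
    (hT : IsPGroup 2 T) (hTi : ¬ 2 ∣ T.relIndex L) (hKT : K ≤ normalizer (T : Set G)) :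
    ∃ P : Subgroup G, P ≤ Y ∧ IsPGroup 2 P ∧ ¬ 2 ∣ P.relIndex Y ∧ K ≤ normalizer (P : Set G) := by
  have hc : IsCyclic f.range := inferInstance
  have hfin : Finite f.range := Finite.of_surjective f.rangeRestrict f.rangeRestrict_surjective
  let _ : CommGroup f.range := IsCyclic.commGroup
  exact sylow_two_ext_of_hom hS hK Y L T hLY hKY hKL hYL (f := f.rangeRestrict)
    (by rw [MonoidHom.ker_rangeRestrict]; exact hker) hTL hT hTi hKT

end main

end Cfsg.Agent.H248.CA
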