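import Cfsg.Agent.H308.CA.Stmts

/-!
# (ON) symmetric decompositions of `1` are diagonalisable; the rank of a diagonal idempotent (helper248, for S3852)
-/

set_option autoImplicit false

namespace Cfsg.Agent.H248.CA

open Matrix Cfsg.Agent.H308.CA

section

variable {ι : Type} [Fintype ι] [DecidableEq ι] {E : Type} [CommRing E] [StarRing E]

omit [DecidableEq ι] in
theorem inner_symm (v w : ι → E) : star (star v ⬝ᵥ w) = star w ⬝ᵥ v := by
  rw [← Matrix.star_dotProduct_star, star_star, dotProduct_comm]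

omit [DecidableEq ι] in
/-- symmetric matrices are self adjoint -/
theorem inner_mulVec {f : Matrix ι ι E} (hf : star f = f) (v w : ι → E) : star (f *ᵥ v) ⬝ᵥ w = star v ⬝ᵥ (f *ᵥ w) := by
  rw [Matrix.star_mulVec, ← star_eq_conjTranspose, hf, dotProduct_mulVec]

/-- an anisotropic vector of norm one -/
theorem exists_unit (h : Gd E) {f : Matrix ι ι E} (hf : IsP f) (h0 : f ≠ 0) :
    ∃ v : ι → E, f *ᵥ v = v ∧ star v ⬝ᵥ v = 1 := by
  obtain ⟨a, b, hab⟩ : ∃ a b, f a b ≠ 0 := by
    by_contra hc
    push Not at hc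
    exact h0 (by ext a b; exact hc a b)
  have hff : ∀ v : ι → E, f *ᵥ (f *ᵥ v) = f *ᵥ v := fun v => by rw [mulVec_mulVec, hf.idem]
  have hin : star (f *ᵥ Pi.single a (1 : E)) ⬝ᵥ (f *ᵥ Pi.single b (1 : E)) = f a b := by
    rw [inner_mulVec hf.sym, hff]
    simp
  -- a vector of nonzero norm
  obtain ⟨v, hv, hv0⟩ : ∃ v : ι → E, f *ᵥ v = v ∧ star v ⬝ᵥ v ≠ 0 := by
    by_contra hcon
    push Not at hcon
    obtain ⟨c, hc⟩ := h.trace hab
    apply hc
    set v₁ := f *ᵥ Pi.single a (1 : E) with hv₁
    set w₁ := f *ᵥ Pi.single b (1 : E) with hw₁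
    have k1 := hcon v₁ (hff _)
    have k2 := hcon w₁ (hff _)
    have k3 := hcon (v₁ + c • w₁) (by rw [mulVec_add, mulVec_smul, hff, hff])
    rw [star_add, star_smul, add_dotProduct, dotProduct_add, dotProduct_add, smul_dotProduct, smul_dotProduct,
      dotProduct_smul, dotProduct_smul, k1, k2, ← inner_symm v₁ w₁, hin, smul_eq_mul, smul_eq_mul, smul_eq_mul, smul_eq_mul] at k3
    rw [star_mul, mul_comm (star (f a b))]
    rw [zero_add, mul_zero, mul_zero, add_zero] at k3
    exact k3
  have hs : star (star v ⬝ᵥ v) = star v ⬝ᵥ v := inner_symm v v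
  obtain ⟨x, hx⟩ := h.isUnit_of_sym hs hv0
  have hxs : star ((x⁻¹ : Eˣ) : E) = ((x⁻¹ : Eˣ) : E) := by
    have h1 : star ((x⁻¹ : Eˣ) : E) * (x : E) = 1 := by
      have h2 : star (x : E) = x := by rw [hx]; exact hs
      calc star ((x⁻¹ : Eˣ) : E) * (x : E) = star ((x⁻¹ : Eˣ) : E) * star (x : E) := by rw [h2]
        _ = star ((x : E) * ((x⁻¹ : Eˣ) : E)) := (star_mul _ _).symm
        _ = 1 := by rw [Units.mul_inv, star_one]
    calc star ((x⁻¹ : Eˣ) : E) = star ((x⁻¹ : Eˣ) : E) * ((x : E) * ((x⁻¹ : Eˣ) : E)) := by rw [Units.mul_inv, mul_one]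
      _ = ((x⁻¹ : Eˣ) : E) := by rw [← mul_assoc, h1, one_mul]
  have hnt := h.nontrivial
  obtain ⟨c, hc⟩ := h.norm hxs (Units.ne_zero _)
  refine ⟨c • v, by rw [mulVec_smul, hv], ?_⟩
  rw [star_smul, smul_dotProduct, dotProduct_smul, smul_eq_mul, smul_eq_mul, ← mul_assoc, hc, ← hx, Units.inv_mul]

omit [DecidableEq ι] in
theorem pv_mulVec (v w : ι → E) : vecMulVec v (star v) *ᵥ w = (star v ⬝ᵥ w) • v := by
  rw [vecMulVec_mulVec]
  ext i
  simp [mul_comm]

omit [DecidableEq ι] in
theorem pv_isP {v : ι → E} (hv : star v ⬝ᵥ v = 1) : IsP (vecMulVec v (star v)) := by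
  refine ⟨?_, ?_⟩
  · rw [vecMulVec_mul_vecMulVec, hv, one_smul]
  · rw [star_eq_conjTranspose, conjTranspose_vecMulVec, star_star]

omit [DecidableEq ι] in
theorem mul_pv {f : Matrix ι ι E} {v : ι → E} (hv : f *ᵥ v = v) : f * vecMulVec v (star v) = vecMulVec v (star v) := by
  rw [mul_vecMulVec, hv]

omit [DecidableEq ι] in
theorem pv_mul {f : Matrix ι ι E} (hf : star f = f) {v : ι → E} (hv : f *ᵥ v = v) :
    vecMulVec v (star v) * f = vecMulVec v (star v) := by
  have h1 : star v ᵥ* f = star v := by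
    conv_rhs => rw [← hv, Matrix.star_mulVec, ← star_eq_conjTranspose, hf]
  rw [vecMulVec_mul, h1]

/-- an orthonormal decomposition of a symmetric idempotent -/
theorem exists_decomp (h : Gd E) (N : ℕ) : ∀ f : Matrix ι ι E, IsP f → Nat.card {w : ι → E // f *ᵥ w = w} ≤ N →
    ∃ (n : ℕ) (v : Fin n → ι → E), (∀ s t, star (v s) ⬝ᵥ v t = if s = t then 1 else 0) ∧ (∀ s, f *ᵥ v s = v s) ∧
      f = ∑ s, vecMulVec (v s) (star (v s)) := by
  have hfin := h.finite
  have hnt := h.nontrivial
  induction N with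
  | zero =>
    intro f hf hN
    exfalso
    have h1 : Nonempty {w : ι → E // f *ᵥ w = w} := ⟨⟨0, mulVec_zero f⟩⟩
    have := Nat.card_pos (α := {w : ι → E // f *ᵥ w = w})
    omega
  | succ N ih =>
    intro f hf hN
    by_cases h0 : f = 0
    · refine ⟨0, Fin.elim0, fun s => s.elim0, fun s => s.elim0, ?_⟩
      rw [h0, Finset.univ_eq_empty, Finset.sum_empty]
    · obtain ⟨v, hv, hv1⟩ := exists_unit h hf h0
      set g := f - vecMulVec v (star v) with hg
      have hgP : IsP g := by
        refine ⟨?_, ?_⟩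
        · rw [hg, mul_sub, sub_mul, sub_mul, hf.idem, mul_pv hv, pv_mul hf.sym hv, (pv_isP hv1).idem]
          abel
        · rw [hg, star_sub, hf.sym, (pv_isP hv1).sym]
      have hgv : g *ᵥ v = 0 := by rw [hg, sub_mulVec, hv, pv_mulVec, hv1, one_smul, sub_self]
      have hfg : f * g = g := by rw [hg, mul_sub, hf.idem, mul_pv hv]
      have hsub : ∀ w, g *ᵥ w = w → f *ᵥ w = w := by
        intro w hw
        conv_lhs => rw [← hw, mulVec_mulVec, hfg]
        exact hw
      have hlt : Nat.card {w : ι → E // g *ᵥ w = w} < Nat.card {w : ι → E // f *ᵥ w = w} := by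
        have hv0 : v ≠ 0 := by
          rintro rfl
          rw [dotProduct_zero] at hv1
          exact zero_ne_one hv1
        classical
        have i1 := Fintype.ofFinite {w : ι → E // g *ᵥ w = w}
        have i2 := Fintype.ofFinite {w : ι → E // f *ᵥ w = w}
        rw [Nat.card_eq_fintype_card, Nat.card_eq_fintype_card]
        refine Fintype.card_lt_of_injective_of_notMem (fun w : {w : ι → E // g *ᵥ w = w} =>
          (⟨w.1, hsub w.1 w.2⟩ : {w : ι → E // f *ᵥ w = w})) (fun a b hab => ?_) (b := ⟨v, hv⟩) ?_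
        · exact Subtype.ext (congrArg (fun x => x.1) hab)
        · rintro ⟨⟨w, hw⟩, hwv⟩
          have : w = v := congrArg (fun x => x.1) hwv
          subst this
          rw [hgv] at hw
          exact hv0 hw.symm
      obtain ⟨n, w, hw1, hw2, hw3⟩ := ih g hgP (by omega)
      have hvw : ∀ s, star v ⬝ᵥ w s = 0 := by
        intro s
        rw [← hw2 s, ← inner_mulVec hgP.sym, hgv, star_zero, zero_dotProduct]
      refine ⟨n + 1, Fin.cons v w, ?_, ?_, ?_⟩
      · intro s t
        refine Fin.cases ?_ (fun s => ?_) s <;> refine Fin.cases ?_ (fun t => ?_) t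
        · rw [Fin.cons_zero, hv1, if_pos rfl]
        · rw [Fin.cons_zero, Fin.cons_succ, hvw, if_neg (Fin.succ_ne_zero t).symm]
        · rw [Fin.cons_zero, Fin.cons_succ, ← inner_symm, hvw, star_zero, if_neg (Fin.succ_ne_zero s)]
        · rw [Fin.cons_succ, Fin.cons_succ, hw1]
          simp only [Fin.succ_inj]
      · intro s
        refine Fin.cases ?_ (fun s => ?_) s
        · rw [Fin.cons_zero]; exact hv
        · rw [Fin.cons_succ]; exact hsub _ (hw2 s)
      · rw [Fin.sum_univ_succ, Fin.cons_zero]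
        simp only [Fin.cons_succ]
        rw [← hw3, hg]
        abel

/-- unitary diagonalization, without the determinant -/
theorem exists_unitary (h : Gd E) {κ : Type} [Fintype κ] [DecidableEq κ] (e : κ → Matrix ι ι E) (hP : ∀ i, IsP (e i))
    (ho : ∀ i j, i ≠ j → e i * e j = 0) (hs : ∑ i, e i = 1) :
    ∃ (a : Matrix ι ι E) (c : ι → κ), star a * a = 1 ∧ ∀ i, e i = star a * dg (fun x => c x = i) * a := by
  have hfin := h.finite
  have hnt := h.nontrivial
  choose n v hv1 hv2 hv3 using fun i => exists_decomp h _ (e i) (hP i) le_rfl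
  let A : Matrix (Σ i, Fin (n i)) ι E := fun s => star (v s.1 s.2)
  have hAA : A * Aᴴ = 1 := by
    ext ⟨i, s⟩ ⟨j, t⟩
    have h1 : (A * Aᴴ) ⟨i, s⟩ ⟨j, t⟩ = star (v i s) ⬝ᵥ v j t := by
      rw [mul_apply, dotProduct]
      refine Finset.sum_congr rfl fun x _ => ?_
      rw [conjTranspose_apply]
      change star (v i s x) * star (star (v j t x)) = star (v i s x) * v j t x
      rw [star_star]
    rw [h1]
    by_cases hij : i = j
    · subst hij
      rw [hv1]
      by_cases hst : s = t
      · subst hst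
        rw [if_pos rfl, one_apply_eq]
      · rw [if_neg hst, one_apply_ne]
        intro h2
        exact hst (eq_of_heq (Sigma.mk.inj h2).2)
    · rw [one_apply_ne (fun h2 => hij (Sigma.mk.inj h2).1), ← hv2 i s, inner_mulVec (hP i).sym, ← hv2 j t, mulVec_mulVec,
        ho i j hij, zero_mulVec, dotProduct_zero]
  have hsum : ∀ i, (∑ s : Fin (n i), vecMulVec (v i s) (star (v i s))) = e i := fun i => (hv3 i).symm
  have hAA' : Aᴴ * A = 1 := by
    rw [← hs]
    ext x y
    rw [mul_apply, Fintype.sum_sigma, Matrix.sum_apply]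
    refine Finset.sum_congr rfl fun i _ => ?_
    rw [← hsum i, Matrix.sum_apply]
    refine Finset.sum_congr rfl fun s _ => ?_
    rw [conjTranspose_apply, vecMulVec_apply]
    change star (star (v i s x)) * star (v i s y) = v i s x * star (v i s y)
    rw [star_star]
  have hcard : Fintype.card (Σ i, Fin (n i)) = Fintype.card ι := Matrix.square_of_invertible A Aᴴ hAA hAA'
  let ε : ι ≃ (Σ i, Fin (n i)) := Fintype.equivOfCardEq hcard.symm
  refine ⟨A.submatrix ε id, fun x => (ε x).1, ?_, fun i => ?_⟩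
  · rw [star_eq_conjTranspose, conjTranspose_submatrix, submatrix_mul_equiv, hAA', submatrix_id_id]
  · rw [← hsum i]
    ext x y
    have h1 : ∀ z, (star (A.submatrix ε id) : Matrix ι ι E) x z *
        ((dg (fun x => (ε x).1 = i) : Matrix ι ι E) * A.submatrix ε id) z y =
        (fun σ : (Σ i, Fin (n i)) => v σ.1 σ.2 x * ((if σ.1 = i then 1 else 0) * star (v σ.1 σ.2 y))) (ε z) := by
      intro z
      rw [dg, diagonal_mul]
      change star (star (v (ε z).1 (ε z).2 x)) * ((if (ε z).1 = i then 1 else 0) * star (v (ε z).1 (ε z).2 y)) = _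
      rw [star_star]
    have h2 := Equiv.sum_comp ε
      (fun σ : (Σ i, Fin (n i)) => v σ.1 σ.2 x * ((if σ.1 = i then 1 else 0) * star (v σ.1 σ.2 y)))
    have h3 : ((∑ s : Fin (n i), vecMulVec (v i s) (star (v i s))) : Matrix ι ι E) x y =
        ∑ s : Fin (n i), v i s x * star (v i s y) := by
      rw [Matrix.sum_apply]
      rfl
    rw [mul_assoc, mul_apply, Finset.sum_congr rfl fun z _ => h1 z, h2, h3, Fintype.sum_sigma, Finset.sum_eq_single i]
    · refine Finset.sum_congr rfl fun s _ => ?_
      rw [if_pos rfl, one_mul]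
    · intro j _ hj
      refine Finset.sum_eq_zero fun s _ => ?_
      rw [if_neg hj, zero_mul, mul_zero]
    · intro h2
      exact absurd (Finset.mem_univ i) h2

/-- **(ON)** -/
theorem on_main (h : Gd E) {κ : Type} [Fintype κ] [DecidableEq κ] (e : κ → Matrix ι ι E) (hP : ∀ i, IsP (e i))
    (ho : ∀ i j, i ≠ j → e i * e j = 0) (hs : ∑ i, e i = 1) :
    ∃ (u : SU ι E) (c : ι → κ), ∀ i, e i = star (H308.CA.mt u) * dg (fun x => c x = i) * H308.CA.mt u := by
  obtain ⟨a, c, ha, hc⟩ := exists_unitary h e hP ho hs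
  have hdet : star a.det * a.det = 1 := by
    have h1 := congrArg Matrix.det ha
    rw [det_mul, star_eq_conjTranspose, det_conjTranspose, det_one] at h1
    exact h1
  rcases isEmpty_or_nonempty ι with hι | ⟨⟨x₀⟩⟩
  · refine ⟨mkSU a ha det_isEmpty, c, hc⟩
  · set d : ι → E := Function.update 1 x₀ (star a.det) with hd
    have hd1 : ∀ x, star (d x) * d x = 1 := by
      intro x
      by_cases hx : x = x₀
      · subst hx
        rw [hd, Function.update_self, star_star, mul_comm]
        exact hdet
      · rw [hd, Function.update_of_ne hx, Pi.one_apply, star_one, one_mul]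
    have hdd : star (diagonal d) * diagonal d = (1 : Matrix ι ι E) := by
      rw [star_eq_conjTranspose, diagonal_conjTranspose, diagonal_mul_diagonal, ← diagonal_one]
      congr 1
      ext x
      exact hd1 x
    refine ⟨mkSU (diagonal d * a) ?_ ?_, c, fun i => ?_⟩
    · rw [star_mul, mul_assoc, ← mul_assoc (star (diagonal d)), hdd, one_mul, ha]
    · rw [det_mul, det_diagonal, hd, Finset.prod_update_of_mem (Finset.mem_univ _)]
      simp only [Pi.one_apply, Finset.prod_const_one, mul_one]
      exact hdet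
    · rw [mt_mkSU, hc i, star_mul]
      have hcomm : star (diagonal d) * dg (fun x => c x = i) * diagonal d = (dg (fun x => c x = i) : Matrix ι ι E) := by
        rw [dg, mul_assoc, diagonal_mul_diagonal, star_eq_conjTranspose, diagonal_conjTranspose, diagonal_mul_diagonal]
        congr 1
        ext x
        rw [mul_left_comm, Pi.star_apply, hd1, mul_one]
      calc star a * dg (fun x => c x = i) * a = star a * (star (diagonal d) * dg (fun x => c x = i) * diagonal d) * a := by
            rw [hcomm]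
        _ = star a * star (diagonal d) * dg (fun x => c x = i) * (diagonal d * a) := by
            simp only [mul_assoc]

/-- the rank of a conjugate of a diagonal idempotent -/
theorem rk_conj' (h : Gd E) {a : Matrix ι ι E} (ha : star a * a = 1) (p : ι → Prop) [DecidablePred p] :
    rk (star a * dg p * a) = Fintype.card {x // p x} := by
  have hfin := h.finite
  have hnt := h.nontrivial
  have ha' : a * star a = 1 := mul_eq_one_comm.1 ha
  have hE : 1 < Nat.card E := Finite.one_lt_card
  have key : ∀ v : ι → E, (star a * dg p * a) *ᵥ v = v → dg p *ᵥ (a *ᵥ v) = a *ᵥ v := by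
    intro v h1
    calc dg p *ᵥ (a *ᵥ v) = (a * (star a * dg p * a)) *ᵥ v := by
          rw [mulVec_mulVec, mul_assoc (star a), ← mul_assoc a, ha', one_mul]
      _ = a *ᵥ v := by rw [← mulVec_mulVec, h1]
  have e1 : {v : ι → E // (star a * dg p * a) *ᵥ v = v} ≃ {w : ι → E // dg p *ᵥ w = w} :=
    { toFun := fun v => ⟨a *ᵥ v.1, key v.1 v.2⟩
      invFun := fun w => ⟨star a *ᵥ w.1, by
        rw [mulVec_mulVec, mul_assoc, ha', mul_one, ← mulVec_mulVec, w.2]⟩
      left_inv := fun v => Subtype.ext (by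
        change star a *ᵥ (a *ᵥ v.1) = v.1
        rw [mulVec_mulVec, ha, one_mulVec])
      right_inv := fun w => Subtype.ext (by
        change a *ᵥ (star a *ᵥ w.1) = w.1
        rw [mulVec_mulVec, ha', one_mulVec]) }
  have hdg : ∀ w : ι → E, dg p *ᵥ w = w ↔ ∀ x, ¬ p x → w x = 0 := by
    intro w
    rw [funext_iff]
    refine forall_congr' fun x => ?_
    rw [dg, mulVec_diagonal]
    by_cases hx : p x
    · rw [if_pos hx, one_mul]
      exact ⟨fun _ h => absurd hx h, fun _ => rfl⟩
    · rw [if_neg hx, zero_mul]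
      exact ⟨fun h _ => h.symm, fun h => (h hx).symm⟩
  have e2 : {w : ι → E // dg p *ᵥ w = w} ≃ ({x // p x} → E) :=
    { toFun := fun w x => w.1 x
      invFun := fun f => ⟨fun x => if hx : p x then f ⟨x, hx⟩ else 0, by
        rw [hdg]
        intro x hx
        rw [dif_neg hx]⟩
      left_inv := fun w => Subtype.ext (by
        funext x
        by_cases hx : p x
        · simp only [dif_pos hx]
        · simp only [dif_neg hx]
          exact ((hdg _).1 w.2 x hx).symm)
      right_inv := fun f => by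
        funext x
        simp only [dif_pos x.2] }
  rw [rk, Nat.card_congr (e1.trans e2), Nat.card_fun, Nat.card_eq_fintype_card (α := {x // p x}), Nat.log_pow hE]

theorem rk_conj (h : Gd E) (u : SU ι E) (p : ι → Prop) [DecidablePred p] :
    rk (star (H308.CA.mt u) * dg p * H308.CA.mt u) = Fintype.card {x // p x} := rk_conj' h (star_mt_mul u) p

end

theorem onSt {E : Type} [CommRing E] [StarRing E] (h : Gd E) : ONSt E := fun _ _ _ _ _ _ e hP ho hs => on_main h e hP ho hs

end Cfsg.Agent.H248.CA
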