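import Mathlib

/-!
# S3852, type A: [CA19] Sylow 2-subgroups of a product of commuting subgroups; a cyclic quotient (helper248)
-/

set_option autoImplicit false

namespace Cfsg.Agent.H248.CA.Prod

open Subgroup

universe u

theorem sylow_prod {G : Type u} [Group G] [Finite G] {L1 L2 T1 T2 : Subgroup G}
    (hc : ∀ x ∈ L1, ∀ y ∈ L2, x * y = y * x) (h1 : T1 ≤ L1) (h2 : T2 ≤ L2) (p1 : IsPGroup 2 T1)
    (p2 : IsPGroup 2 T2) (i1 : ¬ 2 ∣ T1.relIndex L1) (i2 : ¬ 2 ∣ T2.relIndex L2) :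
    IsPGroup 2 (T1 ⊔ T2 : Subgroup G) ∧ ¬ 2 ∣ (T1 ⊔ T2).relIndex (L1 ⊔ L2) := by
  refine ⟨IsPGroup.to_sup_of_normal_right' p1 p2 fun x hx => ?_, fun hdvd => ?_⟩
  · refine centralizer_le_normalizer _ (mem_centralizer_iff.2 fun y hy => ?_)
    exact (hc x (h1 hx) y (h2 hy)).symm
  · let f : L1 × L2 →* G := MonoidHom.noncommCoprod L1.subtype L2.subtype fun a b => hc a a.2 b b.2
    have hf : ∀ a : L1, ∀ b : L2, f (a, b) = (a : G) * b := fun a b => rfl
    let H : Subgroup (L1 × L2) := (T1.subgroupOf L1).prod (T2.subgroupOf L2)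
    have hH : H.map f = T1 ⊔ T2 := by
      apply le_antisymm
      · rintro _ ⟨⟨a, b⟩, hab, rfl⟩
        rw [hf]
        exact mul_mem (mem_sup_left (mem_subgroupOf.1 hab.1)) (mem_sup_right (mem_subgroupOf.1 hab.2))
      · refine sup_le (fun x hx => ?_) fun x hx => ?_
        · exact ⟨(⟨x, h1 hx⟩, 1), ⟨mem_subgroupOf.2 hx, one_mem _⟩, by rw [hf]; exact mul_one x⟩
        · exact ⟨(1, ⟨x, h2 hx⟩), ⟨one_mem _, mem_subgroupOf.2 hx⟩, by rw [hf]; exact one_mul x⟩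
    have hT : (⊤ : Subgroup (L1 × L2)).map f = L1 ⊔ L2 := by
      apply le_antisymm
      · rintro _ ⟨⟨a, b⟩, -, rfl⟩
        rw [hf]
        exact mul_mem (mem_sup_left a.2) (mem_sup_right b.2)
      · refine sup_le (fun x hx => ?_) fun x hx => ?_
        · exact ⟨(⟨x, hx⟩, 1), mem_top _, by rw [hf]; exact mul_one x⟩
        · exact ⟨(1, ⟨x, hx⟩), mem_top _, by rw [hf]; exact one_mul x⟩
    rw [← hH, ← hT, relIndex_map_map, top_sup_eq, relIndex_top_right] at hdvd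
    have h3 : 2 ∣ H.index := hdvd.trans (index_dvd_of_le le_sup_left)
    rw [index_prod] at h3
    rcases Nat.prime_two.dvd_mul.1 h3 with h4 | h4
    · exact i1 h4
    · exact i2 h4

theorem isCyclic_quot {U : Type*} [Group U] {G : Type u} [Group G] (j : U →* G) (Y0 : Subgroup U) {C : Type*}
    [Group C] [IsCyclic C] (d : Y0 →* C) (L : Subgroup G) [((L.subgroupOf (Y0.map j))).Normal]
    (hd : ∀ u : Y0, d u = 1 → j u ∈ L) : IsCyclic (↥(Y0.map j) ⧸ L.subgroupOf (Y0.map j)) := by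
  have hc : IsCyclic (↥Y0 ⧸ d.ker) := isCyclic_of_injective (QuotientGroup.kerLift d) (QuotientGroup.kerLift_injective d)
  let φ : Y0 →* ↥(Y0.map j) ⧸ L.subgroupOf (Y0.map j) := (QuotientGroup.mk' _).comp (j.subgroupMap Y0)
  have hφ : Function.Surjective φ := (QuotientGroup.mk'_surjective _).comp (j.subgroupMap_surjective Y0)
  have hk : d.ker ≤ φ.ker := by
    intro u hu
    rw [MonoidHom.mem_ker] at hu ⊢
    exact (QuotientGroup.eq_one_iff _).2 (mem_subgroupOf.2 (hd u hu))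
  refine isCyclic_of_surjective (QuotientGroup.lift d.ker φ hk) fun x => ?_
  obtain ⟨u, rfl⟩ := hφ x
  exact ⟨(u : ↥Y0 ⧸ d.ker), rfl⟩

end Cfsg.Agent.H248.CA.Prod
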